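import Mathlib

/-!
Transitive groups of degree 18 containing a 17-cycle normalised by a point stabiliser: affine coordinates.
-/

set_option autoImplicit false

namespace CfsgLib.OrderDegrees.Degree18

/-- The points of the projective line over `ZMod 17`. -/
abbrev Pt : Type := Option (ZMod 17)

instance instFactPrimeSeventeen : Fact (Nat.Prime 17) := ⟨by norm_num⟩

/-- Translation by one. -/
def tau : Equiv.Perm Pt := Equiv.optionCongr (Equiv.addRight (1 : ZMod 17))

@[simp] theorem tau_none : tau none = none := rfl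

@[simp] theorem tau_some (x : ZMod 17) : tau (some x) = some (x + 1) := rfl

theorem tau_pow_some (k : ℕ) (x : ZMod 17) : (tau ^ k) (some x) = some (x + k) := by
  induction k with
  | zero => simp
  | succ k ih => rw [pow_succ', Equiv.Perm.mul_apply, ih, tau_some, Nat.cast_succ, add_assoc]

theorem tau_pow_none (k : ℕ) : (tau ^ k) none = none := by
  induction k with
  | zero => simp
  | succ k ih => rw [pow_succ', Equiv.Perm.mul_apply, ih, tau_none]

theorem tau_pow_seventeen : tau ^ 17 = 1 := by
  ext x : 1
  cases x with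
  | none => rw [tau_pow_none]; rfl
  | some x => rw [tau_pow_some, Equiv.Perm.one_apply, show ((17 : ℕ) : ZMod 17) = 0 from rfl, add_zero]

theorem orderOf_tau : orderOf tau = 17 :=
  orderOf_eq_prime tau_pow_seventeen fun h => by
    have := congrArg (fun s : Equiv.Perm Pt => s (some 0)) h
    simp at this

/-- A group of permutations of `Pt` that is transitive, contains the translation and whose stabiliser of
`none` normalises the translations. -/
structure Good (H : Subgroup (Equiv.Perm Pt)) : Prop where
  tau_mem : tau ∈ H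
  trans : ∀ x : Pt, ∃ h ∈ H, h none = x
  norm : ∀ s ∈ H, s none = none → ∃ k : ℕ, s * tau * s⁻¹ = tau ^ k

variable {H : Subgroup (Equiv.Perm Pt)}

theorem Good.tau_pow_mem (hH : Good H) (k : ℕ) : tau ^ k ∈ H := H.pow_mem hH.tau_mem k

/-- Elements fixing `none` are affine. -/
theorem Good.affine (hH : Good H) {s : Equiv.Perm Pt} (hs : s ∈ H) (h0 : s none = none) :
    ∃ a b : ZMod 17, a ≠ 0 ∧ ∀ x : ZMod 17, s (some x) = some (a * x + b) := by
  obtain ⟨k, hk⟩ := hH.norm s hs h0
  have hne : ∀ x : ZMod 17, ∃ y, s (some x) = some y := fun x => by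
    cases h : s (some x) with
    | none => exact absurd (s.injective (h.trans h0.symm)) (by simp)
    | some y => exact ⟨y, rfl⟩
  choose f hf using hne
  have hstep : ∀ x, f (x + 1) = f x + k := by
    intro x
    have h : (s * tau * s⁻¹) (s (some x)) = (tau ^ k) (s (some x)) := by rw [hk]
    have h' : (s * tau * s⁻¹) (s (some x)) = s (tau (some x)) := by simp
    rw [h', tau_some, hf, hf, tau_pow_some] at h
    exact Option.some_injective _ h
  have haff : ∀ n : ℕ, f n = (k : ZMod 17) * n + f 0 := by
    intro n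
    induction n with
    | zero => simp
    | succ n ih => rw [Nat.cast_succ, hstep, ih]; ring
  have haff' : ∀ x : ZMod 17, f x = (k : ZMod 17) * x + f 0 := fun x => by
    conv_lhs => rw [← ZMod.natCast_zmod_val x]
    rw [haff, ZMod.natCast_zmod_val]
  refine ⟨k, f 0, fun h => ?_, fun x => by rw [hf, haff']⟩
  have h1 : f 1 = f 0 := by rw [haff' 1, h, zero_mul, zero_add]
  have := s.injective ((hf 1).trans (h1 ▸ (hf 0).symm))
  simp at this

/-- Move a fixed point to `none`. -/
theorem Good.exists_conj_none (hH : Good H) {g : Equiv.Perm Pt} (hg : g ∈ H) {p : Pt} (hp : g p = p) :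
    ∃ e ∈ H, e * g * e⁻¹ ∈ H ∧ (e * g * e⁻¹) none = none ∧ e p = none := by
  obtain ⟨e, he, hep⟩ := hH.trans p
  refine ⟨e⁻¹, H.inv_mem he, H.mul_mem (H.mul_mem (H.inv_mem he) hg) (H.inv_mem (H.inv_mem he)), ?_, ?_⟩
  · simp [Equiv.Perm.mul_apply, hep, hp]
    rw [Equiv.symm_apply_eq]; exact hep.symm
  · rw [← hep]; simp

/-- An affine map with two fixed points in `ZMod 17` is trivial. -/
theorem Good.fixed_le_two (hH : Good H) {g : Equiv.Perm Pt} (hg : g ∈ H) (h1 : g ≠ 1) {p q r : Pt}
    (hp : g p = p) (hq : g q = q) (hr : g r = r) : p = q ∨ p = r ∨ q = r := by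
  obtain ⟨e, -, hs, hs0, hep⟩ := hH.exists_conj_none hg hp
  obtain ⟨a, b, ha, hab⟩ := hH.affine hs hs0
  by_contra hc
  push Not at hc
  obtain ⟨hpq, hpr, hqr⟩ := hc
  have hne : ∀ y, y ≠ p → ∃ z, e y = some z := fun y hy => by
    cases h : e y with
    | none => exact absurd (e.injective (h.trans hep.symm)) hy
    | some z => exact ⟨z, rfl⟩
  obtain ⟨z, hz⟩ := hne q hpq.symm
  obtain ⟨w, hw⟩ := hne r hpr.symm
  have hfix : ∀ y u, g y = y → e y = some u → a * u + b = u := by
    intro y u hy hu
    have h := hab u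
    rw [← hu] at h
    have h' : (e * g * e⁻¹) (e y) = e (g y) := by simp
    rw [h', hy, hu] at h
    exact (Option.some_injective _ h).symm
  have h2 := hfix q z hq hz
  have h3 := hfix r w hr hw
  have hzw : z ≠ w := fun h => hqr (e.injective (by rw [hz, hw, h]))
  have ha1 : a = 1 := by
    have h4 : (a - 1) * (z - w) = 0 := by linear_combination h2 - h3
    rcases mul_eq_zero.mp h4 with h | h
    · exact sub_eq_zero.mp h
    · exact absurd (sub_eq_zero.mp h) hzw
  have hb0 : b = 0 := by rw [ha1, one_mul] at h2; linear_combination h2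
  apply h1
  have h1' : e * g * e⁻¹ = 1 := by
    ext x : 1
    cases x with
    | none => rw [hs0]; rfl
    | some x => rw [hab x, ha1, hb0, one_mul, add_zero]; rfl
  exact (conj_eq_one_iff).mp h1'

end CfsgLib.OrderDegrees.Degree18
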