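import Cfsg.Agent.Lib.OrderDegrees.Degree18.Struct

/-!
Orders and Sylow numbers of the transitive groups of even permutations of degree 18.
-/

set_option autoImplicit false

namespace CfsgLib.OrderDegrees.Degree18

variable {H : Subgroup (Equiv.Perm Pt)}

theorem sign_mul_three :
    Equiv.Perm.sign (Equiv.optionCongr (Units.mulLeft (Units.mk0 (3 : ZMod 17) (by decide))) : Equiv.Perm Pt) = -1 := by
  decide

variable (hH : Good H) (hev : ∀ h ∈ H, Equiv.Perm.sign h = 1)
include hH hev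

theorem Good.stab₂_dvd_eight : Nat.card ↥(stab₂ H) ∣ 8 := by
  obtain ⟨j, hj, hd⟩ := hH.two_pow_dvd
  rcases Nat.lt_or_ge j 4 with h | h
  · rw [hd]; exact (Nat.pow_dvd_pow 2 (show j ≤ 3 by omega))
  · exfalso
    obtain ⟨f, hf, hfx⟩ := hH.exists_multiplierHom
    have hsurj : Function.Surjective f := by
      refine (hf.bijective_of_nat_card_le ?_).2
      rw [hd, show j = 4 by omega, Nat.card_eq_fintype_card, ZMod.card_units_eq_totient,
        Nat.totient_prime (by norm_num)]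
      norm_num
    obtain ⟨h, hh⟩ := hsurj (Units.mk0 (3 : ZMod 17) (by decide))
    have heq : ((h : ↥H) : Equiv.Perm Pt) =
        (Equiv.optionCongr (Units.mulLeft (Units.mk0 (3 : ZMod 17) (by decide))) : Equiv.Perm Pt) := by
      ext x : 1
      cases x with
      | none => exact (mem_stab₂.mp h.2).1
      | some x => rw [hfx, hh]; rfl
    have := hev _ (h : ↥H).2
    rw [heq, sign_mul_three] at this
    exact absurd this (by decide)

/-- Elements of order dividing 17 centralise a normalised Sylow subgroup of order `< 17`, so none does. -/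
theorem Good.seventeen_not_dvd_normalizer_three (R : Sylow 3 ↥H) :
    ¬ 17 ∣ Nat.card ↥(Subgroup.normalizer ((R : Subgroup ↥H) : Set ↥H)) := by
  intro hd
  obtain ⟨⟨z, hzN⟩, hz⟩ := exists_prime_orderOf_dvd_card' 17 hd
  rw [Subgroup.orderOf_mk] at hz
  let act : MulAction ↥(Subgroup.normalizer ((R : Subgroup ↥H) : Set ↥H)) ↥(R : Subgroup ↥H) :=
    { smul := fun g u => ⟨g * u * (g : ↥H)⁻¹, (g.2 u).mp u.2⟩
      one_smul := fun u => Subtype.ext (by show (1 : ↥H) * u * (1 : ↥H)⁻¹ = u; simp)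
      mul_smul := fun g h u => Subtype.ext (by
        show ((g * h : ↥H)) * u * ((g * h : ↥H))⁻¹ = g * (h * u * (h : ↥H)⁻¹) * (g : ↥H)⁻¹
        simp [mul_assoc]) }
  have : Fact (Nat.Prime 3) := ⟨Nat.prime_three⟩
  obtain ⟨⟨y, hyR⟩, hy⟩ := exists_prime_orderOf_dvd_card' (G := ↥(R : Subgroup ↥H)) 3
    (by rw [hH.card_sylow_three_group R]; norm_num)
  rw [Subgroup.orderOf_mk] at hy
  have hz17 : (⟨z, hzN⟩ : ↥(Subgroup.normalizer ((R : Subgroup ↥H) : Set ↥H))) ^ 17 = 1 :=
    Subtype.ext (by simp only [Subgroup.coe_pow, Subgroup.coe_one]; rw [← hz]; exact pow_orderOf_eq_one z)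
  have hfix := perm_fixed_of_small (X := ↥(R : Subgroup ↥H)) hz17
    (by rw [hH.card_sylow_three_group R]; norm_num) ⟨y, hyR⟩
  have hcomm : z * y * z⁻¹ = y := congrArg Subtype.val hfix
  have hz1 : (z : Equiv.Perm Pt) ≠ 1 := fun h => by
    have : z = 1 := Subtype.ext h
    rw [this, orderOf_one] at hz; norm_num at hz
  have hy1 : (y : Equiv.Perm Pt) ≠ 1 := fun h => by
    have : y = 1 := Subtype.ext h
    rw [this, orderOf_one] at hy; norm_num at hy
  obtain ⟨p, hp⟩ := exists_fixed_of_pow_seventeen (z := (z : Equiv.Perm Pt))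
    (congrArg (fun g : ↥(Subgroup.normalizer ((R : Subgroup ↥H) : Set ↥H)) => ((g : ↥H) : Equiv.Perm Pt)) hz17)
  exact hH.not_commute y.2 z.2 (by
    have := congrArg (Subtype.val : ↥H → _) (hy ▸ pow_orderOf_eq_one y); simpa using this) hy1 hz1 hp
    (congrArg Subtype.val (mul_inv_eq_iff_eq_mul.mp hcomm)).symm

theorem Good.card_sylow_three : Nat.card (Sylow 3 ↥H) = 136 := by
  classical
  have : Fact (Nat.Prime 3) := ⟨Nat.prime_three⟩
  let R : Sylow 3 ↥H := default
  have h9 := hH.card_sylow_three_group R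
  -- congruence modulo 9
  have hmod : 9 ∣ Nat.card (Sylow 3 ↥H) - 1 := by
    have hfree : ∀ S : Sylow 3 ↥H, S ≠ R →
        Nat.card (MulAction.orbit ↥(R : Subgroup ↥H) S) = 9 := by
      intro S hS
      have hst : MulAction.stabilizer ↥(R : Subgroup ↥H) S = ⊥ := by
        rw [eq_bot_iff]
        intro g hg
        have hgN : (g : ↥H) ∈ Subgroup.normalizer ((S : Subgroup ↥H) : Set ↥H) :=
          Sylow.smul_eq_iff_mem_normalizer.mp hg
        have h1 : (g : ↥H) ∈ (R : Subgroup ↥H) ⊓ Subgroup.normalizer ((S : Subgroup ↥H) : Set ↥H) := ⟨g.2, hgN⟩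
        rw [show (R : Subgroup ↥H) ⊓ Subgroup.normalizer ((S : Subgroup ↥H) : Set ↥H) =
          (R : Subgroup ↥H) ⊓ (S : Subgroup ↥H) from R.2.inf_normalizer_sylow S,
          hH.sylow_three_ti hev R S hS.symm] at h1
        exact Subgroup.mem_bot.mpr (Subtype.ext (Subgroup.mem_bot.mp h1))
      rw [Nat.card_coe_set_eq, ← MulAction.index_stabilizer, hst, Subgroup.index_bot, h9]
    have := Fintype.ofFinite (Sylow 3 ↥H)
    have hdecomp : Nat.card {S : Sylow 3 ↥H // S ≠ R} = Nat.card (Sylow 3 ↥H) - 1 := by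
      rw [Nat.card_eq_fintype_card, Nat.card_eq_fintype_card, Fintype.card_subtype_compl,
        Fintype.card_subtype_eq]
    rw [← hdecomp]
    let act : MulAction ↥(R : Subgroup ↥H) {S : Sylow 3 ↥H // S ≠ R} :=
      { smul := fun g S => ⟨g • S.1, fun h => S.2 (by
          have hR : g⁻¹ • R = R := Sylow.smul_eq_iff_mem_normalizer.mpr (Subgroup.le_normalizer g⁻¹.2)
          rw [← inv_smul_smul g S.1, h, hR])⟩
        one_smul := fun S => Subtype.ext (one_smul ↥(R : Subgroup ↥H) S.1)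
        mul_smul := fun g h S => Subtype.ext (mul_smul g h S.1) }
    have horb : ∀ S : {S : Sylow 3 ↥H // S ≠ R}, Nat.card (MulAction.orbit ↥(R : Subgroup ↥H) S) = 9 := by
      intro S
      rw [← hfree S.1 S.2]
      refine Nat.card_congr (Equiv.ofBijective (fun x => ⟨x.1.1, ?_⟩) ⟨?_, ?_⟩)
      · obtain ⟨g, hg⟩ := x.2
        exact ⟨g, congrArg Subtype.val hg⟩
      · intro a b h
        exact Subtype.ext (Subtype.ext (by simpa using h))
      · rintro ⟨_, g, rfl⟩
        exact ⟨⟨g • S, g, rfl⟩, rfl⟩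
    rw [Nat.card_congr (MulAction.selfEquivSigmaOrbits ↥(R : Subgroup ↥H) {S : Sylow 3 ↥H // S ≠ R}),
      Nat.card_sigma]
    exact Finset.dvd_sum fun ω _ => by rw [horb]
  -- divisibility
  obtain ⟨j, -, hj⟩ := hH.two_pow_dvd
  have hj3 : j ≤ 3 := by
    have := hH.stab₂_dvd_eight hev
    rw [hj] at this
    exact (Nat.pow_dvd_pow_iff_le_right (by norm_num)).mp (show 2 ^ j ∣ 2 ^ 3 from this)
  have hidx : (R : Subgroup ↥H).index = 34 * 2 ^ j := by
    have h := Subgroup.card_mul_index (R : Subgroup ↥H)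
    rw [h9, hH.card_eq.1, hj] at h
    omega
  have hdvd : Nat.card (Sylow 3 ↥H) ∣ 34 * 2 ^ j := hidx ▸ Sylow.card_dvd_index R
  have h17 : 17 ∣ Nat.card (Sylow 3 ↥H) := by
    have h1 : Nat.card ↥H = Nat.card (Sylow 3 ↥H) * Nat.card ↥(Subgroup.normalizer ((R : Subgroup ↥H) : Set ↥H)) := by
      rw [Sylow.card_eq_index_normalizer R]; exact (Subgroup.index_mul_card _).symm
    have h2 : 17 ∣ Nat.card ↥H := by rw [hH.card_eq.1]; exact Dvd.dvd.mul_right (dvd_mul_left 17 18) _
    rw [h1] at h2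
    exact ((Nat.Prime.dvd_mul (by norm_num)).mp h2).resolve_right (hH.seventeen_not_dvd_normalizer_three hev R)
  have hpos : 0 < Nat.card (Sylow 3 ↥H) := Nat.card_pos
  obtain ⟨m, hm⟩ := h17
  rw [hm] at hdvd hmod hpos ⊢
  rw [show 34 * 2 ^ j = 17 * (2 ^ (j + 1)) by ring] at hdvd
  obtain ⟨i, hi, rfl⟩ := (Nat.dvd_prime_pow Nat.prime_two).mp ((Nat.mul_dvd_mul_iff_left (by norm_num)).mp hdvd)
  have hi4 : i ≤ 4 := by omega
  interval_cases i <;> (norm_num at hmod) <;> norm_num

theorem Good.card_2448 : Nat.card ↥H = 2448 ∧ Nat.card ↥(stab₂ H) = 8 := by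
  classical
  have : Fact (Nat.Prime 3) := ⟨Nat.prime_three⟩
  have := Fintype.ofFinite (Sylow 3 ↥H)
  have := Fintype.ofFinite ↥H
  -- non-trivial 3-elements
  let T : (Σ R : Sylow 3 ↥H, {y : ↥(R : Subgroup ↥H) // y ≠ 1}) → ↥H := fun x => (x.2.1 : ↥H)
  have hT : Function.Injective T := by
    rintro ⟨R, ⟨⟨y, hy⟩, hy1⟩⟩ ⟨S, ⟨⟨z, hz⟩, hz1⟩⟩ h
    have hyz : y = z := h
    subst hyz
    have hRS : R = S := by
      by_contra hne
      have : y ∈ (R : Subgroup ↥H) ⊓ (S : Subgroup ↥H) := ⟨hy, hz⟩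
      rw [hH.sylow_three_ti hev R S hne, Subgroup.mem_bot] at this
      exact hy1 (Subtype.ext this)
    subst hRS
    rfl
  have hTcard : Nat.card (Σ R : Sylow 3 ↥H, {y : ↥(R : Subgroup ↥H) // y ≠ 1}) = 136 * 8 := by
    rw [Nat.card_sigma, Finset.sum_congr rfl (g := fun _ => 8) fun R _ => ?_]
    · rw [Finset.sum_const, Finset.card_univ, ← Nat.card_eq_fintype_card, hH.card_sylow_three hev, smul_eq_mul]
    · have := Fintype.ofFinite ↥(R : Subgroup ↥H)
      rw [Nat.card_eq_fintype_card, Fintype.card_subtype_compl, Fintype.card_subtype_eq,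
        ← Nat.card_eq_fintype_card, hH.card_sylow_three_group R]
  -- elements of order 17
  choose e he hex using hH.trans
  let S : Pt × Fin 16 → ↥H := fun x =>
    ⟨e x.1 * tau ^ ((x.2 : ℕ) + 1) * (e x.1)⁻¹, H.mul_mem (H.mul_mem (he _) (hH.tau_pow_mem _)) (H.inv_mem (he _))⟩
  have htau : ∀ k, 0 < k → k < 17 → ∀ x : Pt, (tau ^ k) x = x → x = none := by
    intro k hk hk' x hx
    cases x with
    | none => rfl
    | some y =>
      rw [tau_pow_some] at hx
      have h := Option.some_injective _ hx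
      have : (k : ZMod 17) = 0 := by linear_combination h
      rw [ZMod.natCast_eq_zero_iff] at this
      exact absurd (Nat.le_of_dvd hk this) (by omega)
  have hS : Function.Injective S := by
    rintro ⟨p, i⟩ ⟨q, j⟩ h
    have hv : e p * tau ^ ((i : ℕ) + 1) * (e p)⁻¹ = e q * tau ^ ((j : ℕ) + 1) * (e q)⁻¹ := congrArg Subtype.val h
    have hp : (e q * tau ^ ((j : ℕ) + 1) * (e q)⁻¹) p = p := by
      rw [← hv]
      simp only [Equiv.Perm.mul_apply]
      rw [show (e p)⁻¹ p = none from by rw [Equiv.Perm.coe_inv, Equiv.symm_apply_eq]; exact (hex p).symm,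
        tau_pow_none, hex]
    simp only [Equiv.Perm.mul_apply] at hp
    have hp' : (tau ^ ((j : ℕ) + 1)) ((e q)⁻¹ p) = (e q)⁻¹ p := by
      conv_rhs => rw [← hp]
      simp
    have hpq : p = q := by
      have h1 := htau _ (by omega) (by omega) _ hp'
      rw [Equiv.Perm.coe_inv, Equiv.symm_apply_eq, hex] at h1
      exact h1
    subst hpq
    have h2 : tau ^ ((i : ℕ) + 1) = tau ^ ((j : ℕ) + 1) := mul_left_cancel (mul_right_cancel hv)
    have h3 := congrArg (fun s : Equiv.Perm Pt => s (some 0)) h2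
    simp only [tau_pow_some, zero_add] at h3
    have h4 := congrArg ZMod.val (Option.some_injective _ h3)
    rw [ZMod.val_natCast_of_lt (by omega), ZMod.val_natCast_of_lt (by omega)] at h4
    exact Prod.ext rfl (Fin.ext (by simpa using h4))
  have hdisj : ∀ a b, T a ≠ S b := by
    rintro ⟨R, ⟨y, hy1⟩⟩ b h
    have h17 : (S b) ^ 17 = 1 := Subtype.ext (by
      simp only [S, SubmonoidClass.coe_pow, Subgroup.coe_one, conj_pow, ← pow_mul]
      rw [mul_comm _ 17, pow_mul, tau_pow_seventeen, one_pow, mul_one, mul_inv_cancel])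
    obtain ⟨k, hk⟩ := R.2 y
    have hy17 : y ^ 17 = 1 := Subtype.ext (by
      simp only [SubmonoidClass.coe_pow, Subgroup.coe_one]
      rw [show (y : ↥H) = S b from h]; exact h17)
    apply hy1
    have h1 := Nat.dvd_gcd (orderOf_dvd_of_pow_eq_one hk) (orderOf_dvd_of_pow_eq_one hy17)
    rw [Nat.coprime_iff_gcd_eq_one.mp
      (((Nat.coprime_primes Nat.prime_three (by norm_num)).mpr (by norm_num)).pow_left k)] at h1
    exact orderOf_eq_one_iff.mp (Nat.dvd_one.mp h1)
  have hle : 136 * 8 + 18 * 16 ≤ Nat.card ↥H := by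
    have hinj : Function.Injective (Sum.elim T S) := hT.sumElim hS hdisj
    have h := Nat.card_le_card_of_injective _ hinj
    rw [Nat.card_sum, hTcard, Nat.card_prod, Nat.card_fin] at h
    simpa [Nat.card_eq_fintype_card, Fintype.card_option] using h
  obtain ⟨j, -, hj⟩ := hH.two_pow_dvd
  have h8 := hH.stab₂_dvd_eight hev
  rw [hj] at h8
  have hj3 : j ≤ 3 := (Nat.pow_dvd_pow_iff_le_right (by norm_num)).mp (show 2 ^ j ∣ 2 ^ 3 from h8)
  rw [hH.card_eq.1, hj] at hle ⊢
  interval_cases j <;> (norm_num at hle) <;> norm_num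

theorem Good.card_sylow_two : Nat.card (Sylow 2 ↥H) = 153 := by
  classical
  have : Fact (Nat.Prime 2) := ⟨Nat.prime_two⟩
  obtain ⟨hcard, hst⟩ := hH.card_2448 hev
  have h16 : ∀ S : Sylow 2 ↥H, Nat.card (S : Subgroup ↥H) = 16 := by
    intro S
    rw [Sylow.card_eq_multiplicity, hcard, show (2448 : ℕ) = 2 ^ 4 * 153 by norm_num,
      Nat.factorization_mul (by norm_num) (by norm_num), Finsupp.add_apply,
      Nat.Prime.factorization_pow Nat.prime_two, Finsupp.single_eq_same,
      Nat.factorization_eq_zero_of_not_dvd (by norm_num)]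
    norm_num
  -- an element of order 8
  obtain ⟨f, hf, -⟩ := hH.exists_multiplierHom
  have : IsCyclic ↥(stab₂ H) := isCyclic_of_injective_ringHom ((Units.coeHom (ZMod 17)).comp f)
    (Units.val_injective.comp hf)
  obtain ⟨g₀, hg₀⟩ := IsCyclic.exists_ofOrder_eq_natCard (α := ↥(stab₂ H))
  rw [hst] at hg₀
  obtain ⟨S₀, hS₀⟩ := (IsPGroup.of_card (G := ↥(stab₂ H)) (n := 3) (hst.trans (by norm_num : (8 : ℕ) = 2 ^ 3))).exists_le_sylow
  let S : Sylow 2 ↥H := default
  obtain ⟨c, hc⟩ := MulAction.exists_smul_eq ↥H S₀ S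
  set g : ↥H := c * g₀ * c⁻¹ with hg
  have hgS : g ∈ (S : Subgroup ↥H) := by
    rw [← hc, Sylow.coe_subgroup_smul]
    exact ⟨g₀, hS₀ g₀.2, rfl⟩
  have hg8 : orderOf g = 8 := by
    rw [hg, ← MulAut.conj_apply, MulEquiv.orderOf_eq, Subgroup.orderOf_coe, hg₀]
  -- normaliser is a 2-group
  set N := Subgroup.normalizer ((S : Subgroup ↥H) : Set ↥H) with hN
  let act : MulAction ↥N ↥(S : Subgroup ↥H) :=
    { smul := fun x u => ⟨x * u * (x : ↥H)⁻¹, (x.2 u).mp u.2⟩
      one_smul := fun u => Subtype.ext (by show (1 : ↥H) * u * (1 : ↥H)⁻¹ = u; simp)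
      mul_smul := fun x y u => Subtype.ext (by
        show ((x * y : ↥H)) * u * ((x * y : ↥H))⁻¹ = x * (y * u * (y : ↥H)⁻¹) * (x : ↥H)⁻¹
        simp [mul_assoc]) }
  have hno17 : ¬ 17 ∣ Nat.card ↥N := by
    intro hd
    obtain ⟨⟨z, hzN⟩, hz⟩ := exists_prime_orderOf_dvd_card' 17 hd
    rw [Subgroup.orderOf_mk] at hz
    have hz17 : (⟨z, hzN⟩ : ↥N) ^ 17 = 1 :=
      Subtype.ext (by simp only [Subgroup.coe_pow, Subgroup.coe_one]; rw [← hz]; exact pow_orderOf_eq_one z)
    have hfix := perm_fixed_of_small (X := ↥(S : Subgroup ↥H)) hz17 (by rw [h16]; norm_num) ⟨g, hgS⟩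
    have hcomm : z * g * z⁻¹ = g := congrArg Subtype.val hfix
    have hz1 : (z : Equiv.Perm Pt) ≠ 1 := fun h => by
      have : z = 1 := Subtype.ext h
      rw [this, orderOf_one] at hz; norm_num at hz
    have hzp : (z : Equiv.Perm Pt) ^ 17 = 1 :=
      congrArg (fun x : ↥N => ((x : ↥H) : Equiv.Perm Pt)) hz17
    obtain ⟨e, he, k, hk0, hk, hek⟩ := hH.exists_conj_tau z.2 hzp hz1
    set u := e * (g : Equiv.Perm Pt) * e⁻¹ with hu
    have huc0 : Commute (g : Equiv.Perm Pt) (z : Equiv.Perm Pt) :=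
      (congrArg Subtype.val (mul_inv_eq_iff_eq_mul.mp hcomm)).symm
    have huc : Commute u (tau ^ k) := by
      rw [← hek]
      exact huc0.map (MulAut.conj e).toMonoidHom
    obtain ⟨m, hm⟩ : ∃ m : ℕ, (tau ^ k) ^ m = tau := by
      refine ⟨((k : ZMod 17)⁻¹).val, ?_⟩
      rw [← pow_mul]
      have hk' : (k : ZMod 17) ≠ 0 := by
        rw [Ne, ZMod.natCast_eq_zero_iff]
        exact fun hd => absurd (Nat.le_of_dvd hk0 hd) (by omega)
      have : ((k * ((k : ZMod 17)⁻¹).val : ℕ) : ZMod 17) = ((1 : ℕ) : ZMod 17) := by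
        rw [Nat.cast_mul, ZMod.natCast_zmod_val, Nat.cast_one, mul_inv_cancel₀ hk']
      rw [ZMod.natCast_eq_natCast_iff'] at this
      rw [← pow_mod_orderOf, orderOf_tau, this]
      norm_num
    have h17u := hH.eq_tau_pow_of_commute_tau (H.mul_mem (H.mul_mem he g.2) (H.inv_mem he))
      (by rw [← hm]; exact (huc.pow_right m).eq)
    rw [← hu, hu, conj_pow, conj_eq_one_iff] at h17u
    have hg17 : g ^ 17 = 1 := Subtype.ext (by simpa using h17u)
    have := orderOf_dvd_of_pow_eq_one hg17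
    rw [hg8] at this
    norm_num at this
  have hno3 : ¬ 3 ∣ Nat.card ↥N := by
    intro hd
    obtain ⟨⟨y, hyN⟩, hy⟩ := exists_prime_orderOf_dvd_card' 3 hd
    rw [Subgroup.orderOf_mk] at hy
    -- the unique involution of ⟨g⟩ is a fourth power, and the only involution that is one
    have key : ∀ s ∈ (S : Subgroup ↥H), s ^ 4 ≠ 1 → s ^ 8 = 1 → s ^ 4 = g ^ 4 := by
      intro s hs h4 h8'
      set D := (Subgroup.zpowers g).subgroupOf (S : Subgroup ↥H) with hD
      have hDi : D.index = 2 := by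
        have h := Subgroup.card_mul_index D
        rw [Nat.card_congr (Subgroup.subgroupOfEquivOfLe (Subgroup.zpowers_le.mpr hgS)).toEquiv,
          Nat.card_zpowers, hg8, h16] at h
        omega
      have hsq : s ^ 2 ∈ Subgroup.zpowers g := by
        have := Subgroup.sq_mem_of_index_two hDi (⟨s, hs⟩ : ↥(S : Subgroup ↥H))
        exact this
      obtain ⟨i, hi⟩ := mem_zpowers_iff_mem_range_orderOf.mp hsq |> Finset.mem_image.mp
      obtain ⟨-, hi⟩ := hi
      have e4 : s ^ 4 = g ^ (2 * i) := by rw [show (4 : ℕ) = 2 * 2 by rfl, pow_mul, ← hi, ← pow_mul, mul_comm]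
      have e8 : g ^ (4 * i) = 1 := by rw [show 4 * i = 2 * i * 2 by ring, pow_mul, ← e4, ← pow_mul]; exact h8'
      have hdv : 8 ∣ 4 * i := hg8 ▸ orderOf_dvd_of_pow_eq_one e8
      rw [e4]
      apply pow_eq_pow_iff_modEq.mpr
      rw [hg8]
      have h4' : ¬ 8 ∣ 2 * i := fun hd' => h4 (by rw [e4]; exact orderOf_dvd_iff_pow_eq_one.mp (hg8 ▸ hd'))
      unfold Nat.ModEq
      omega
    have hg4 : g ^ 4 ≠ 1 := fun h => by
      have := orderOf_dvd_of_pow_eq_one h
      rw [hg8] at this; norm_num at this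
    have hconj : ∀ n : ℕ, (y * g * y⁻¹) ^ n = y * g ^ n * y⁻¹ := fun n => conj_pow
    have hzz : y * g ^ 4 * y⁻¹ = g ^ 4 := by
      rw [← hconj]
      apply key _ ((hyN g).mp hgS)
      · rw [hconj, Ne, conj_eq_one_iff]; exact hg4
      · rw [hconj, conj_eq_one_iff, ← hg8]; exact pow_orderOf_eq_one g
    set z := g ^ 4 with hzdef
    have hz2 : (z : Equiv.Perm Pt) ^ 2 = 1 := by
      have : z ^ 2 = 1 := by rw [hzdef, ← pow_mul, show 4 * 2 = orderOf g by rw [hg8]]; exact pow_orderOf_eq_one g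
      simpa using congrArg (Subtype.val : ↥H → _) this
    have hz1 : (z : Equiv.Perm Pt) ≠ 1 := fun h => hg4 (Subtype.ext h)
    obtain ⟨p, hp⟩ := exists_fixed_of_even_involution hz2 (hev _ z.2)
    exact hH.not_commute y.2 z.2
      (by have := congrArg (Subtype.val : ↥H → _) (hy ▸ pow_orderOf_eq_one y); simpa using this)
      (fun h => by
        have : y = 1 := Subtype.ext h
        rw [this, orderOf_one] at hy; norm_num at hy)
      hz1 hp (congrArg Subtype.val (mul_inv_eq_iff_eq_mul.mp hzz))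
  have hNcard : Nat.card ↥N = 16 := by
    have hd : Nat.card ↥N ∣ 2 ^ 4 * (3 ^ 2 * 17) := by
      have := N.card_subgroup_dvd_card; rw [hcard] at this; exact this
    have hc : Nat.Coprime (Nat.card ↥N) (3 ^ 2 * 17) :=
      Nat.Coprime.mul_right (((Nat.prime_three.coprime_iff_not_dvd).mpr hno3).symm.pow_right 2)
        (((Nat.Prime.coprime_iff_not_dvd (by norm_num)).mpr hno17).symm)
    have h1 : Nat.card ↥N ∣ 16 := hc.dvd_of_dvd_mul_right hd
    exact Nat.dvd_antisymm h1 ((h16 S) ▸ Subgroup.card_dvd_of_le Subgroup.le_normalizer)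
  have := Subgroup.index_mul_card N
  rw [hNcard, hcard] at this
  rw [Sylow.card_eq_index_normalizer S]
  show N.index = 153
  omega

end CfsgLib.OrderDegrees.Degree18
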