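import Cfsg.Agent.Lib.OrderDegrees.Degree18.Count
import Cfsg.Agent.Lib.ClassicalLinear.Card
set_option autoImplicit false
namespace CfsgLib.OrderDegrees.Degree18

/-- Discrete logarithm to base 3. -/
def logThree (x : ZMod 17) : ℕ := [0, 0, 14, 1, 12, 5, 15, 11, 10, 2, 3, 7, 13, 4, 9, 6, 8].getD x.val 0

theorem three_pow_log : ∀ x : ZMod 17, x ≠ 0 → (3 : ZMod 17) ^ logThree x = x := by decide

/-- Candidate for the involution exchanging `none` and `some 0`. -/
def cand (a c c' : ZMod 17) : Pt → Pt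
  | none => some 0
  | some x => if x = 0 then none else
      some (a ^ (logThree x / 2) * (if logThree x % 2 = 0 then c else c'))

def addP (b : ZMod 17) : Pt → Pt := Option.map (· + b)
def mulP (l : ZMod 17) : Pt → Pt := Option.map (l * ·)

/-- The relation forced by `t τ t ∈ H`. -/
def CandRel (a c c' : ZMod 17) : Prop :=
  ∃ b : ZMod 17, cand a c c' (some b) = some (-1) ∧ ∃ l : ZMod 17, l ^ 8 = 1 ∧
    ∀ x : Pt, addP (-c) (cand a c c' (addP 1 (cand a c c' (addP b x)))) = mulP l (cand a c c' x)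

instance instDecidableCandRel (a c c' : ZMod 17) : Decidable (CandRel a c c') := by
  unfold CandRel; infer_instance

theorem cand_unique : ∀ a : ZMod 17, a ^ 8 = 1 → ∀ c : ZMod 17, (c = 1 ∨ c = 3) → ∀ c' : ZMod 17,
    CandRel a c c' → a = 2 ∧ c = 1 ∧ c' = 6 := by decide +kernel

theorem cand_two : ∀ x : ZMod 17, cand 2 1 6 (some x) = if x = 0 then none else some x⁻¹ := by decide +kernel


open Matrix

/-- The Moebius action on `Pt`. -/
def moebius : GL (Fin 2) (ZMod 17) →* Equiv.Perm Pt :=
  MulAction.toPermHom (GL (Fin 2) (ZMod 17)) (OnePoint (ZMod 17))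

theorem moebius_none (g : GL (Fin 2) (ZMod 17)) :
    moebius g none = if g 1 0 = 0 then none else some (g 0 0 / g 1 0) :=
  OnePoint.smul_infty_eq_ite g

theorem moebius_some (g : GL (Fin 2) (ZMod 17)) (k : ZMod 17) :
    moebius g (some k) = if g 1 0 * k + g 1 1 = 0 then none
      else some ((g 0 0 * k + g 0 1) / (g 1 0 * k + g 1 1)) :=
  OnePoint.smul_some_eq_ite

theorem mem_center_of_moebius_eq_one {g : GL (Fin 2) (ZMod 17)} (h : moebius g = 1) :
    g 1 0 = 0 ∧ g 0 1 = 0 ∧ g 0 0 = g 1 1 := by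
  have h1 := congrArg (fun s : Equiv.Perm Pt => s none) h
  have h2 := congrArg (fun s : Equiv.Perm Pt => s (some 0)) h
  have h3 := congrArg (fun s : Equiv.Perm Pt => s (some 1)) h
  simp only [moebius_none, moebius_some, Equiv.Perm.one_apply] at h1 h2 h3
  have hc : g 1 0 = 0 := by
    by_contra hc; rw [if_neg hc] at h1; exact Option.some_ne_none _ h1
  have hd : g 1 1 ≠ 0 := by
    intro hd; rw [if_pos (by rw [hd, mul_zero, zero_add])] at h2; exact Option.some_ne_none _ h2.symm
  rw [if_neg (by rw [mul_zero, zero_add]; exact hd)] at h2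
  rw [if_neg (by rw [hc, zero_mul, zero_add]; exact hd)] at h3
  have hb' := Option.some_injective _ h2
  rw [mul_zero, zero_add, mul_zero, zero_add, div_eq_zero_iff] at hb'
  have hb := hb'.resolve_right hd
  refine ⟨hc, hb, ?_⟩
  have ha := Option.some_injective _ h3
  rw [hc, hb, zero_mul, zero_add, mul_one, add_zero, div_eq_one_iff_eq hd] at ha
  exact ha

/-- `x ↦ x + u`. -/
def glTrans (u : ZMod 17) : GL (Fin 2) (ZMod 17) :=
  GeneralLinearGroup.mkOfDetNeZero !![1, u; 0, 1] (by simp [det_fin_two])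

/-- `x ↦ l * x`. -/
def glMul (l : ZMod 17) (hl : l ≠ 0) : GL (Fin 2) (ZMod 17) :=
  GeneralLinearGroup.mkOfDetNeZero !![l, 0; 0, 1] (by simp [det_fin_two, hl])

/-- `x ↦ 1 / x`. -/
def glInv : GL (Fin 2) (ZMod 17) :=
  GeneralLinearGroup.mkOfDetNeZero !![0, 1; 1, 0] (by simp [det_fin_two])

theorem moebius_glTrans_none (u : ZMod 17) : moebius (glTrans u) none = none := by
  simp [moebius_none, glTrans]

theorem moebius_glTrans_some (u x : ZMod 17) : moebius (glTrans u) (some x) = some (x + u) := by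
  simp [moebius_some, glTrans]

theorem moebius_glMul_none (l : ZMod 17) (hl : l ≠ 0) : moebius (glMul l hl) none = none := by
  simp [moebius_none, glMul]

theorem moebius_glMul_some (l : ZMod 17) (hl : l ≠ 0) (x : ZMod 17) :
    moebius (glMul l hl) (some x) = some (l * x) := by
  simp [moebius_some, glMul]

theorem moebius_glTrans (u : ZMod 17) : moebius (glTrans u) = tau ^ u.val := by
  ext x : 1
  cases x with
  | none => rw [moebius_glTrans_none, tau_pow_none]
  | some x => rw [moebius_glTrans_some, tau_pow_some, ZMod.natCast_zmod_val]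

theorem moebius_scalar (g h : GL (Fin 2) (ZMod 17)) (s : ZMod 17) (hs : s ≠ 0)
    (hgh : ∀ i j, g i j = s * h i j) : moebius g = moebius h := by
  ext x : 1
  cases x with
  | none =>
    rw [moebius_none, moebius_none, hgh, hgh, mul_div_mul_left _ _ hs]
    simp only [mul_eq_zero, hs, false_or]
  | some x =>
    rw [moebius_some, moebius_some, hgh, hgh, hgh, hgh]
    simp only [mul_assoc, ← mul_add, mul_eq_zero, hs, false_or, mul_div_mul_left _ _ hs]

variable {H : Subgroup (Equiv.Perm Pt)}

theorem Good.roots_mem (hH : Good H) (hev : ∀ h ∈ H, Equiv.Perm.sign h = 1) (l : ZMod 17) (hl : l ^ 8 = 1)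
    (hl0 : l ≠ 0) : moebius (glMul l hl0) ∈ H := by
  classical
  obtain ⟨f, hf, hfx⟩ := hH.exists_multiplierHom
  obtain ⟨-, h8⟩ := hH.card_2448 hev
  have := Fintype.ofFinite ↥(stab₂ H)
  have hsub : Finset.univ.image (fun h : ↥(stab₂ H) => (f h : ZMod 17)) ⊆
      Finset.univ.filter (fun x : ZMod 17 => x ^ 8 = 1) := by
    intro x hx
    obtain ⟨h, -, rfl⟩ := Finset.mem_image.mp hx
    simp only [Finset.mem_filter, Finset.mem_univ, true_and]
    rw [← Units.val_pow_eq_pow_val, ← map_pow, ← h8, pow_card_eq_one', map_one, Units.val_one]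
  have heq : Finset.univ.image (fun h : ↥(stab₂ H) => (f h : ZMod 17)) =
      Finset.univ.filter (fun x : ZMod 17 => x ^ 8 = 1) := by
    refine Finset.eq_of_subset_of_card_le hsub ?_
    rw [Finset.card_image_of_injective Finset.univ (fun a b h => hf (Units.ext h)), Finset.card_univ,
      ← Nat.card_eq_fintype_card, h8]
    decide
  have hmem : l ∈ Finset.univ.image (fun h : ↥(stab₂ H) => (f h : ZMod 17)) := by
    rw [heq]; simp [hl]
  obtain ⟨h, -, hh⟩ := Finset.mem_image.mp hmem
  have : moebius (glMul l hl0) = ((h : ↥H) : Equiv.Perm Pt) := by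
    ext x : 1
    cases x with
    | none => rw [moebius_glMul_none]; exact (mem_stab₂.mp h.2).1.symm
    | some x => rw [moebius_glMul_some, hfx, hh]
  rw [this]; exact (h : ↥H).2

theorem Good.exists_roots (hH : Good H) {s : Equiv.Perm Pt} (hs : s ∈ H) (h0 : s none = none)
    (h1 : s (some 0) = some 0) (hev : ∀ h ∈ H, Equiv.Perm.sign h = 1) :
    ∃ a : ZMod 17, a ^ 8 = 1 ∧ a ≠ 0 ∧ ∀ x, s (some x) = some (a * x) := by
  obtain ⟨f, -, hfx⟩ := hH.exists_multiplierHom
  let h : ↥(stab₂ H) := ⟨⟨s, hs⟩, ⟨h0, h1⟩⟩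
  refine ⟨f h, ?_, (f h).ne_zero, fun x => hfx h x⟩
  rw [← Units.val_pow_eq_pow_val, ← map_pow, ← (hH.card_2448 hev).2, pow_card_eq_one', map_one, Units.val_one]

theorem Good.inv_mem' (hH : Good H) (hev : ∀ h ∈ H, Equiv.Perm.sign h = 1) : moebius glInv ∈ H := by
  obtain ⟨e, he, hex⟩ := hH.trans (some 0)
  obtain ⟨j, hj⟩ : ∃ j, e (some j) = none := by
    obtain ⟨y, hy⟩ := e.surjective none
    cases y with
    | none => rw [hex] at hy; exact absurd hy (Option.some_ne_none _)
    | some j => exact ⟨j, hy⟩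
  set t₀ := e * tau ^ j.val with ht₀
  have ht₀m : t₀ ∈ H := H.mul_mem he (hH.tau_pow_mem _)
  have ht₀n : t₀ none = some 0 := by rw [ht₀, Equiv.Perm.mul_apply, tau_pow_none, hex]
  have ht₀z : t₀ (some 0) = none := by
    rw [ht₀, Equiv.Perm.mul_apply, tau_pow_some, zero_add, ZMod.natCast_zmod_val, hj]
  obtain ⟨c₀, hc₀⟩ : ∃ c, t₀ (some 1) = some c := by
    cases h : t₀ (some 1) with
    | none => exact absurd (t₀.injective (h.trans ht₀z.symm)) (by simp)
    | some c => exact ⟨c, rfl⟩
  have hc₀0 : c₀ ≠ 0 := by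
    rintro rfl; exact absurd (t₀.injective (hc₀.trans ht₀n.symm)) (by simp)
  obtain ⟨l, hl8, hlc⟩ : ∃ l : ZMod 17, l ^ 8 = 1 ∧ (l * c₀ = 1 ∨ l * c₀ = 3) := by
    have key : ∀ c : ZMod 17, c ≠ 0 → ∃ l : ZMod 17, l ^ 8 = 1 ∧ (l * c = 1 ∨ l * c = 3) := by decide
    exact key c₀ hc₀0
  have hl0 : l ≠ 0 := by rintro rfl; simp at hl8
  set t := moebius (glMul l hl0) * t₀ with ht
  have htm : t ∈ H := H.mul_mem (hH.roots_mem hev l hl8 hl0) ht₀m
  have htn : t none = some 0 := by
    rw [ht, Equiv.Perm.mul_apply, ht₀n, moebius_glMul_some, mul_zero]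
  have htz : t (some 0) = none := by rw [ht, Equiv.Perm.mul_apply, ht₀z, moebius_glMul_none]
  have htc : t (some 1) = some (l * c₀) := by rw [ht, Equiv.Perm.mul_apply, hc₀, moebius_glMul_some]
  set c := l * c₀ with hc
  clear_value t
  -- conjugation of the multiplication by 9
  set m := moebius (glMul 9 (by decide)) with hm
  have hmm : m ∈ H := hH.roots_mem hev 9 (by decide) (by decide)
  have htin : t⁻¹ none = some 0 := by rw [Equiv.Perm.coe_inv, Equiv.symm_apply_eq]; exact htz.symm
  have htiz : t⁻¹ (some 0) = none := by rw [Equiv.Perm.coe_inv, Equiv.symm_apply_eq]; exact htn.symm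
  obtain ⟨a, ha8, -, hax⟩ := hH.exists_roots (H.mul_mem (H.mul_mem htm hmm) (H.inv_mem htm))
    (by rw [Equiv.Perm.mul_apply, Equiv.Perm.mul_apply, htin, hm, moebius_glMul_some, mul_zero, htz])
    (by rw [Equiv.Perm.mul_apply, Equiv.Perm.mul_apply, htiz, hm, moebius_glMul_none, htn]) hev
  have hstep : ∀ x y : ZMod 17, t (some x) = some y → t (some (9 * x)) = some (a * y) := by
    intro x y h
    have h' : (t * m * t⁻¹) (t (some x)) = t (m (some x)) := by simp
    rw [← hax y, ← h, h', hm, moebius_glMul_some]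
  have hiter : ∀ (i : ℕ) (x y : ZMod 17), t (some x) = some y → t (some (9 ^ i * x)) = some (a ^ i * y) := by
    intro i
    induction i with
    | zero => intro x y h; simpa using h
    | succ i ih =>
      intro x y h
      rw [pow_succ', pow_succ', mul_assoc, mul_assoc]
      exact hstep _ _ (ih x y h)
  obtain ⟨c', hc'⟩ : ∃ c, t (some 3) = some c := by
    cases h : t (some 3) with
    | none => exact absurd (Option.some_injective _ (t.injective (h.trans htz.symm))) (by decide)
    | some c => exact ⟨c, rfl⟩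
  have hcand : ∀ p : Pt, t p = cand a c c' p := by
    intro p
    cases p with
    | none => rw [htn]; rfl
    | some x =>
      rcases eq_or_ne x 0 with rfl | hx
      · rw [htz]; rfl
      simp only [cand, if_neg hx]
      have h3 := three_pow_log x hx
      rw [← Nat.div_add_mod (logThree x) 2, pow_add, pow_mul, show (3 : ZMod 17) ^ 2 = 9 by decide] at h3
      conv_lhs => rw [← h3]
      rcases Nat.mod_two_eq_zero_or_one (logThree x) with h | h
      · rw [h, if_pos rfl, pow_zero]
        exact hiter _ 1 c htc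
      · rw [h, if_neg (by norm_num), pow_one]
        exact hiter _ 3 c' hc'
  -- the relation
  obtain ⟨b, hb⟩ : ∃ b, t (some b) = some (-1) := by
    obtain ⟨y, hy⟩ := t.surjective (some (-1))
    cases y with
    | none => rw [htn] at hy; exact absurd (Option.some_injective _ hy) (by decide)
    | some b => exact ⟨b, hy⟩
  have hrel : CandRel a c c' := by
    refine ⟨b, by rw [← hcand]; exact hb, ?_⟩
    set h := tau ^ (-c).val * (t * tau * t) * tau ^ b.val * t⁻¹ with hh
    have hhm : h ∈ H := H.mul_mem (H.mul_mem (H.mul_mem (hH.tau_pow_mem _)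
      (H.mul_mem (H.mul_mem htm hH.tau_mem) htm)) (hH.tau_pow_mem _)) (H.inv_mem htm)
    have happ : ∀ p, h p = (tau ^ (-c).val) (t (tau (t ((tau ^ b.val) (t⁻¹ p))))) := fun p => by
      simp [hh, Equiv.Perm.mul_apply]
    have hh0 : h none = none := by
      rw [happ, htin, tau_pow_some, zero_add, ZMod.natCast_zmod_val, hb, tau_some, neg_add_cancel, htz,
        tau_pow_none]
    have hh1 : h (some 0) = some 0 := by
      rw [happ, htiz, tau_pow_none, htn, tau_some, zero_add, htc, tau_pow_some, ZMod.natCast_zmod_val,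
        add_neg_cancel]
    obtain ⟨u, hu8, -, hux⟩ := hH.exists_roots hhm hh0 hh1 hev
    refine ⟨u, hu8, fun p => ?_⟩
    have hadd : ∀ (v : ZMod 17) (q : Pt), addP v q = (tau ^ v.val) q := by
      intro v q
      cases q with
      | none => rw [tau_pow_none]; rfl
      | some x => rw [tau_pow_some, ZMod.natCast_zmod_val]; rfl
    have htau1 : ∀ q : Pt, addP 1 q = tau q := by intro q; cases q <;> rfl
    have hmul : ∀ q : Pt, mulP u q = h q := by
      intro q
      cases q with
      | none => rw [hh0]; rfl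
      | some x => rw [hux]; rfl
    rw [hadd, ← hcand, ← hcand, htau1, ← hcand, hadd, hmul, happ, Equiv.Perm.coe_inv, Equiv.symm_apply_apply]
  obtain ⟨ha2, hc1, hc6⟩ := cand_unique a ha8 c hlc c' hrel
  have : moebius glInv = t := by
    ext p : 1
    rw [hcand, ha2, hc1, hc6]
    cases p with
    | none => simp [moebius_none, glInv, cand]
    | some x =>
      rw [cand_two, moebius_some]
      simp [glInv]
  rw [this]; exact htm

theorem Good.sl_mem (hH : Good H) (hev : ∀ h ∈ H, Equiv.Perm.sign h = 1)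
    (A : SpecialLinearGroup (Fin 2) (ZMod 17)) : moebius (SpecialLinearGroup.toGL A) ∈ H := by
  have hd : A.1 0 0 * A.1 1 1 - A.1 0 1 * A.1 1 0 = 1 := by rw [← det_fin_two]; exact A.2
  set g := SpecialLinearGroup.toGL A with hg
  have hgij : ∀ i j, g i j = A.1 i j := fun i j => rfl
  have h8 : ∀ l : ZMod 17, l ≠ 0 → (l ^ 2) ^ 8 = 1 := by decide
  have htr : ∀ u, moebius (glTrans u) ∈ H := fun u => by rw [moebius_glTrans]; exact hH.tau_pow_mem _
  by_cases hc : A.1 1 0 = 0
  · rw [hc, mul_zero, sub_zero] at hd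
    have ha : A.1 0 0 ≠ 0 := fun h => by rw [h, zero_mul] at hd; exact zero_ne_one hd
    rw [moebius_scalar g (glTrans (A.1 0 0 * A.1 0 1) * glMul (A.1 0 0 ^ 2) (pow_ne_zero 2 ha)) (A.1 0 0)⁻¹
      (inv_ne_zero ha) ?_, map_mul]
    · exact H.mul_mem (htr _) (hH.roots_mem hev _ (h8 _ ha) _)
    · intro i j
      rw [hgij, Units.val_mul]
      have hd' : A.1 1 1 = (A.1 0 0)⁻¹ := eq_inv_of_mul_eq_one_right hd
      fin_cases i <;> fin_cases j <;> simp [glTrans, glMul, Matrix.mul_apply, Fin.sum_univ_two, hc, hd'] <;>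
        field_simp
  · set l := -((A.1 1 0)⁻¹ ^ 2) with hl
    have hl0 : l ≠ 0 := neg_ne_zero.mpr (pow_ne_zero 2 (inv_ne_zero hc))
    have hl8 : l ^ 8 = 1 := by
      rw [hl, show (8 : ℕ) = 2 * 4 by rfl, pow_mul, neg_sq, ← pow_mul]
      exact h8 _ (inv_ne_zero hc)
    rw [moebius_scalar g (glTrans (A.1 0 0 / A.1 1 0) * glMul l hl0 * glInv * glTrans (A.1 1 1 / A.1 1 0))
      (A.1 1 0) hc ?_, map_mul, map_mul, map_mul]
    · exact H.mul_mem (H.mul_mem (H.mul_mem (htr _) (hH.roots_mem hev _ hl8 _)) (hH.inv_mem' hev)) (htr _)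
    · intro i j
      rw [hgij, Units.val_mul, Units.val_mul, Units.val_mul]
      fin_cases i <;> fin_cases j <;> simp [glTrans, glMul, glInv, hl, Matrix.mul_apply, Fin.sum_univ_two] <;>
        field_simp <;> linear_combination -hd

/-- The permutation representation of `PSL(2, 17)`. -/
theorem exists_psl_hom :
    ∃ ψ : ProjectiveSpecialLinearGroup (Fin 2) (ZMod 17) →* Equiv.Perm Pt, Function.Injective ψ ∧
      ∀ A, ψ (QuotientGroup.mk A) = moebius (SpecialLinearGroup.toGL A) := by
  have hle : Subgroup.center (SpecialLinearGroup (Fin 2) (ZMod 17)) ≤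
      (moebius.comp SpecialLinearGroup.toGL).ker := by
    intro A hA
    obtain ⟨r, hr, hs⟩ := Matrix.SpecialLinearGroup.mem_center_iff.mp hA
    rw [MonoidHom.mem_ker, MonoidHom.comp_apply]
    rw [moebius_scalar (SpecialLinearGroup.toGL A) 1 r ?_ ?_, map_one]
    · intro h; rw [h] at hr; simp at hr
    · intro i j
      show A.1 i j = _
      rw [← hs]
      fin_cases i <;> fin_cases j <;> simp
  refine ⟨QuotientGroup.lift _ _ hle, ?_, fun A => rfl⟩
  rw [injective_iff_map_eq_one]
  intro x
  induction x using QuotientGroup.induction_on with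
  | H A =>
  intro h
  rw [QuotientGroup.eq_one_iff, Matrix.SpecialLinearGroup.mem_center_iff]
  obtain ⟨h1, h2, h3⟩ := mem_center_of_moebius_eq_one (g := SpecialLinearGroup.toGL A) h
  have h1' : A.1 1 0 = 0 := h1
  have h2' : A.1 0 1 = 0 := h2
  have h3' : A.1 0 0 = A.1 1 1 := h3
  refine ⟨A.1 0 0, ?_, ?_⟩
  · have hd : A.1 0 0 * A.1 1 1 - A.1 0 1 * A.1 1 0 = 1 := by rw [← det_fin_two]; exact A.2
    rw [h1', ← h3', mul_zero, sub_zero] at hd
    rw [Fintype.card_fin, sq]; exact hd
  · ext i j
    fin_cases i <;> fin_cases j <;> simp [h1', h2', h3']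

theorem Good.nonempty_equiv_psl (hH : Good H) (hev : ∀ h ∈ H, Equiv.Perm.sign h = 1) :
    Nonempty (↥H ≃* ProjectiveSpecialLinearGroup (Fin 2) (ZMod 17)) := by
  obtain ⟨ψ, hψ, hψA⟩ := exists_psl_hom
  have hle : ψ.range ≤ H := by
    rintro _ ⟨x, rfl⟩
    induction x using QuotientGroup.induction_on with
    | H A => rw [hψA]; exact hH.sl_mem hev A
  have hcard : Nat.card ↥ψ.range = 2448 := by
    rw [← Nat.card_congr (MonoidHom.ofInjective hψ).toEquiv]
    have := CfsgLib.ClassicalLinear.card_PSL_two_of_odd (F := ZMod 17) (q := 17) (ZMod.card 17) (by decide)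
    omega
  have heq : ψ.range = H := Subgroup.eq_of_le_of_card_ge hle (by rw [(hH.card_2448 hev).1, hcard])
  exact ⟨((MonoidHom.ofInjective hψ).trans (MulEquiv.subgroupCongr heq)).symm⟩

/-- The even part of a group. -/
theorem Good.even_part (hH : Good H) : Good (H ⊓ alternatingGroup Pt) := by
  have htau : tau ∈ H ⊓ alternatingGroup Pt := by
    refine ⟨hH.tau_mem, ?_⟩
    show tau ∈ alternatingGroup Pt
    rw [Equiv.Perm.mem_alternatingGroup]
    have h : tau = (tau ^ 9) ^ 2 := by
      rw [← pow_mul, show 9 * 2 = 17 + 1 by rfl, pow_succ, tau_pow_seventeen, one_mul]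
    rw [h, map_pow, Int.units_sq]
  refine ⟨htau, ?_, fun s hs h0 => hH.norm s hs.1 h0⟩
  by_contra hc
  push Not at hc
  obtain ⟨x, hx⟩ := hc
  -- every even element of H fixes `none`
  have hfixnone : ∀ g ∈ H ⊓ alternatingGroup Pt, g none = none := by
    intro g hg
    by_contra hg0
    cases hgn : g none with
    | none => exact hg0 hgn
    | some y =>
      cases x with
      | none => exact hx 1 (one_mem _) rfl
      | some x =>
        apply hx (tau ^ (x - y).val * g) (Subgroup.mul_mem _ (Subgroup.pow_mem _ htau _) hg)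
        rw [Equiv.Perm.mul_apply, hgn, tau_pow_some, ZMod.natCast_zmod_val, add_sub_cancel]
  obtain ⟨e, he, hex⟩ := hH.trans (some 0)
  have hconj : e⁻¹ * tau * e ∈ H ⊓ alternatingGroup Pt := by
    refine ⟨H.mul_mem (H.mul_mem (H.inv_mem he) hH.tau_mem) he, ?_⟩
    have h2 : tau ∈ alternatingGroup Pt := htau.2
    rw [Equiv.Perm.mem_alternatingGroup] at h2
    show e⁻¹ * tau * e ∈ alternatingGroup Pt
    rw [Equiv.Perm.mem_alternatingGroup, map_mul, map_mul, h2, mul_one, ← map_mul,
      inv_mul_cancel, map_one]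
  have h := hfixnone _ hconj
  rw [Equiv.Perm.mul_apply, Equiv.Perm.mul_apply, Equiv.Perm.coe_inv, hex, Equiv.symm_apply_eq, hex,
    tau_some] at h
  exact absurd (Option.some_injective _ h) (by decide)

theorem sign_even_part {g : Equiv.Perm Pt} (hg : g ∈ H ⊓ alternatingGroup Pt) : Equiv.Perm.sign g = 1 :=
  Equiv.Perm.mem_alternatingGroup.mp hg.2

theorem Good.nonempty_equiv_pgl (hH : Good H) (hodd : ∃ h ∈ H, Equiv.Perm.sign h = -1) :
    Nonempty (↥H ≃* (GL (Fin 2) (ZMod 17) ⧸ Subgroup.center (GL (Fin 2) (ZMod 17)))) := by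
  have hE := hH.even_part
  set E := H ⊓ alternatingGroup Pt with hEdef
  have hev : ∀ g ∈ E, Equiv.Perm.sign g = 1 := fun g hg => sign_even_part hg
  obtain ⟨hEcard, -⟩ := hE.card_2448 hev
  -- H has twice the order of E
  let χ : ↥H →* ℤˣ := Equiv.Perm.sign.comp H.subtype
  have hker : χ.ker = E.subgroupOf H := by
    ext h
    rw [MonoidHom.mem_ker, Subgroup.mem_subgroupOf, hEdef, Subgroup.mem_inf]
    exact ⟨fun hh => ⟨h.2, Equiv.Perm.mem_alternatingGroup.mpr hh⟩, fun hh => Equiv.Perm.mem_alternatingGroup.mp hh.2⟩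
  have hsurj : Function.Surjective χ := by
    intro u
    rcases Int.units_eq_one_or u with rfl | rfl
    · exact ⟨1, map_one χ⟩
    · obtain ⟨h, hh, hs⟩ := hodd; exact ⟨⟨h, hh⟩, hs⟩
  have hHcard : Nat.card ↥H = 4896 := by
    have h1 := Subgroup.card_mul_index χ.ker
    rw [Subgroup.index_ker, MonoidHom.range_eq_top.mpr hsurj, Subgroup.card_top, hker,
      Nat.card_congr (Subgroup.subgroupOfEquivOfLe (inf_le_left : E ≤ H)).toEquiv, hEcard,
      Nat.card_eq_fintype_card (α := ℤˣ), Fintype.card_units_int] at h1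
    omega
  -- E is the image of SL
  obtain ⟨ψ, hψ, hψA⟩ := exists_psl_hom
  have hErange : ∀ g ∈ E, g ∈ moebius.range := by
    have hle : ψ.range ≤ E := by
      rintro _ ⟨x, rfl⟩
      induction x using QuotientGroup.induction_on with
      | H A => rw [hψA]; exact hE.sl_mem hev A
    have hcard : Nat.card ↥ψ.range = 2448 := by
      rw [← Nat.card_congr (MonoidHom.ofInjective hψ).toEquiv]
      have := CfsgLib.ClassicalLinear.card_PSL_two_of_odd (F := ZMod 17) (q := 17) (ZMod.card 17) (by decide)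
      omega
    have heq : ψ.range = E := Subgroup.eq_of_le_of_card_ge hle (by rw [hEcard, hcard])
    intro g hg
    rw [← heq] at hg
    obtain ⟨x, rfl⟩ := hg
    induction x using QuotientGroup.induction_on with
    | H A => exact ⟨_, (hψA A).symm⟩
  -- multiplication by 3
  have h3 : moebius (glMul 3 (by decide)) ∈ H ∧ Equiv.Perm.sign (moebius (glMul 3 (by decide))) = -1 := by
    have heq : moebius (glMul 3 (by decide)) =
        (Equiv.optionCongr (Units.mulLeft (Units.mk0 (3 : ZMod 17) (by decide))) : Equiv.Perm Pt) := by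
      ext x : 1
      cases x with
      | none => rw [moebius_glMul_none]; rfl
      | some x => rw [moebius_glMul_some]; rfl
    refine ⟨?_, by rw [heq]; exact sign_mul_three⟩
    have h16 : Nat.card ↥(stab₂ H) = 16 := by
      have := hH.card_eq.1
      rw [hHcard] at this
      omega
    obtain ⟨f, hf, hfx⟩ := hH.exists_multiplierHom
    have hsurj : Function.Surjective f := by
      refine (hf.bijective_of_nat_card_le ?_).2
      rw [h16, Nat.card_eq_fintype_card, ZMod.card_units_eq_totient, Nat.totient_prime (by norm_num)]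
    obtain ⟨h, hh⟩ := hsurj (Units.mk0 (3 : ZMod 17) (by decide))
    have : moebius (glMul 3 (by decide)) = ((h : ↥H) : Equiv.Perm Pt) := by
      ext x : 1
      cases x with
      | none => rw [moebius_glMul_none]; exact (mem_stab₂.mp h.2).1.symm
      | some x => rw [moebius_glMul_some, hfx, hh]; rfl
    rw [this]; exact (h : ↥H).2
  have hHle : H ≤ moebius.range := by
    intro h hh
    rcases Int.units_eq_one_or (Equiv.Perm.sign h) with hs | hs
    · exact hErange h ⟨hh, Equiv.Perm.mem_alternatingGroup.mpr hs⟩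
    · have hmem : h * moebius (glMul 3 (by decide)) ∈ moebius.range :=
        hErange _ ⟨H.mul_mem hh h3.1, Equiv.Perm.mem_alternatingGroup.mpr (by rw [map_mul, hs, h3.2]; rfl)⟩
      have h3r : moebius (glMul 3 (by decide)) ∈ moebius.range := MonoidHom.mem_range.mpr ⟨_, rfl⟩
      exact (Subgroup.mul_mem_cancel_right _ h3r).mp hmem
  have hle : Subgroup.center (GL (Fin 2) (ZMod 17)) ≤ moebius.ker := by
    intro g hg
    rw [GeneralLinearGroup.center_eq_range_scalar] at hg
    obtain ⟨u, rfl⟩ := hg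
    rw [MonoidHom.mem_ker, moebius_scalar _ 1 (u : ZMod 17) u.ne_zero ?_, map_one]
    intro i j
    fin_cases i <;> fin_cases j <;> simp
  let φ := QuotientGroup.lift _ moebius hle
  have hφ : Function.Injective φ := by
    rw [injective_iff_map_eq_one]
    intro x
    induction x using QuotientGroup.induction_on with
    | H g =>
    intro h
    obtain ⟨h1, h2, h3⟩ := mem_center_of_moebius_eq_one (g := g) h
    rw [QuotientGroup.eq_one_iff, GeneralLinearGroup.center_eq_range_scalar]
    have ha : g 0 0 ≠ 0 := by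
      intro ha
      have := g.det_ne_zero
      rw [det_fin_two, ha, h1, h2] at this
      simp at this
    refine ⟨Units.mk0 (g 0 0) ha, ?_⟩
    ext i j
    fin_cases i <;> fin_cases j <;> simp [h1, h2, h3]
  have hrange : φ.range = moebius.range := by
    ext y
    constructor
    · rintro ⟨x, rfl⟩
      induction x using QuotientGroup.induction_on with
      | H g => exact ⟨g, rfl⟩
    · rintro ⟨g, rfl⟩
      exact ⟨QuotientGroup.mk g, rfl⟩
  have hcard : Nat.card ↥φ.range = 4896 := by
    rw [← Nat.card_congr (MonoidHom.ofInjective hφ).toEquiv]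
    have h1 := CfsgLib.ClassicalLinear.card_SL_two (F := ZMod 17) (q := 17) (ZMod.card 17)
    have h2 := CfsgLib.ClassicalLinear.card_PGL (F := ZMod 17) (ι := Fin 2)
    have hgl := CfsgLib.ClassicalLinear.card_GL_eq_card_SL_mul (F := ZMod 17) (ι := Fin 2)
    have hc := CfsgLib.ClassicalLinear.card_center_GL (F := ZMod 17) (ι := Fin 2)
    have h3 := Subgroup.card_eq_card_quotient_mul_card_subgroup (Subgroup.center (GL (Fin 2) (ZMod 17)))
    rw [hgl, hc] at h3
    rw [← Nat.eq_of_mul_eq_mul_right Nat.card_pos h3, h1]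
    norm_num
  have heq : H = φ.range := Subgroup.eq_of_le_of_card_ge (hrange ▸ hHle) (by rw [hHcard, hcard])
  exact ⟨(MulEquiv.subgroupCongr heq).trans (MonoidHom.ofInjective hφ).symm⟩

end CfsgLib.OrderDegrees.Degree18
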