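import Cfsg.Agent.Lib.OrderDegrees.Degree18.Affine

/-!
Transitive groups of even permutations of degree 18 with a normalised 17-cycle have order 2448 and
136 Sylow 3-subgroups and 153 Sylow 2-subgroups.
-/

set_option autoImplicit false

namespace CfsgLib.OrderDegrees.Degree18

variable {H : Subgroup (Equiv.Perm Pt)}

open MulAction

/-- The stabiliser of `none`, inside `H`. -/
def stab (H : Subgroup (Equiv.Perm Pt)) : Subgroup ↥H := MulAction.stabilizer ↥H (none : Pt)

/-- The stabiliser of `none` and `some 0`, inside `H`. -/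
def stab₂ (H : Subgroup (Equiv.Perm Pt)) : Subgroup ↥H :=
  stab H ⊓ MulAction.stabilizer ↥H (some 0 : Pt)

theorem mem_stab {h : ↥H} : h ∈ stab H ↔ (h : Equiv.Perm Pt) none = none := Iff.rfl

theorem mem_stab₂ {h : ↥H} :
    h ∈ stab₂ H ↔ (h : Equiv.Perm Pt) none = none ∧ (h : Equiv.Perm Pt) (some 0) = some 0 := Iff.rfl

theorem Good.mult (hH : Good H) {h : ↥H} (hh : h ∈ stab₂ H) :
    ∃ a : ZMod 17, a ≠ 0 ∧ ∀ x : ZMod 17, (h : Equiv.Perm Pt) (some x) = some (a * x) := by
  obtain ⟨h1, h2⟩ := mem_stab₂.mp hh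
  obtain ⟨a, b, ha, hab⟩ := hH.affine h.2 h1
  have hb : b = 0 := by
    have := hab 0
    rw [h2, mul_zero, zero_add] at this
    exact (Option.some_injective _ this).symm
  exact ⟨a, ha, fun x => by rw [hab, hb, add_zero]⟩

/-- The multiplier of an element of the two-point stabiliser. -/
theorem Good.exists_multiplierHom (hH : Good H) :
    ∃ f : ↥(stab₂ H) →* (ZMod 17)ˣ, Function.Injective f ∧
      ∀ (h : ↥(stab₂ H)) (x : ZMod 17), ((h : ↥H) : Equiv.Perm Pt) (some x) = some ((f h : ZMod 17) * x) := by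
  choose a ha hax using fun h : ↥(stab₂ H) => hH.mult h.2
  let f : ↥(stab₂ H) →* (ZMod 17)ˣ := MonoidHom.mk' (fun h => Units.mk0 (a h) (ha h)) fun g h => by
    apply Units.ext
    have h1 := hax (g * h) 1
    have h2 : ((((g * h : ↥(stab₂ H)) : ↥H)) : Equiv.Perm Pt) (some 1) = some (a g * (a h * 1)) := by
      rw [Subgroup.coe_mul, Subgroup.coe_mul, Equiv.Perm.mul_apply, hax, hax]
    rw [h1, mul_one, mul_one] at h2
    exact Option.some_injective _ h2
  refine ⟨f, fun g h hgh => ?_, fun h x => hax h x⟩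
  have hgh' : a g = a h := congrArg Units.val hgh
  apply Subtype.ext; apply Subtype.ext
  ext x : 1
  cases x with
  | none => rw [(mem_stab₂.mp g.2).1, (mem_stab₂.mp h.2).1]
  | some x => rw [hax, hax, hgh']

theorem Good.card_eq (hH : Good H) :
    Nat.card ↥H = 18 * 17 * Nat.card ↥(stab₂ H) ∧ Nat.card ↥(stab₂ H) ∣ 16 := by
  refine ⟨?_, ?_⟩
  · have h18 : Nat.card (MulAction.orbit ↥H (none : Pt)) = 18 := by
      have : MulAction.orbit ↥H (none : Pt) = Set.univ := by
        rw [Set.eq_univ_iff_forall]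
        intro x
        obtain ⟨h, hh, hx⟩ := hH.trans x
        exact ⟨⟨h, hh⟩, hx⟩
      rw [this, Nat.card_congr (Equiv.Set.univ Pt), Nat.card_eq_fintype_card]
      rfl
    have h1 : Nat.card ↥H = 18 * Nat.card ↥(stab H) := by
      rw [← h18, Nat.card_coe_set_eq, ← MulAction.index_stabilizer]
      exact (Subgroup.index_mul_card _).symm
    have h17 : Nat.card (MulAction.orbit ↥(stab H) (some 0 : Pt)) = 17 := by
      have heq : MulAction.orbit ↥(stab H) (some 0 : Pt) = Set.range some := by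
        ext x
        constructor
        · rintro ⟨⟨⟨h, hh⟩, hs⟩, rfl⟩
          cases hx : h (some 0) with
          | none => exact absurd (h.injective (hx.trans (show h none = none from hs).symm)) (by simp)
          | some y => exact ⟨y, hx.symm⟩
        · rintro ⟨y, rfl⟩
          refine ⟨⟨⟨tau ^ y.val, hH.tau_pow_mem _⟩, tau_pow_none _⟩, ?_⟩
          show (tau ^ y.val) (some 0) = some y
          rw [tau_pow_some, zero_add, ZMod.natCast_zmod_val]
      rw [heq, Nat.card_congr (Equiv.ofInjective some (Option.some_injective _)).symm, Nat.card_zmod]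
    have h2 : Nat.card ↥(stab H) = 17 * Nat.card ↥(stab₂ H) := by
      rw [← h17, Nat.card_coe_set_eq, ← MulAction.index_stabilizer, ← Subgroup.index_mul_card
        (MulAction.stabilizer ↥(stab H) (some 0 : Pt))]
      congr 1
      have e : MulAction.stabilizer ↥(stab H) (some 0 : Pt) = (stab₂ H).subgroupOf (stab H) := by
        ext h
        exact ⟨fun hh => ⟨h.2, hh⟩, fun hh => hh.2⟩
      rw [e]
      exact Nat.card_congr (Subgroup.subgroupOfEquivOfLe (inf_le_left : stab₂ H ≤ stab H)).toEquiv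
    rw [h1, h2]; ring
  · obtain ⟨f, hf, -⟩ := hH.exists_multiplierHom
    have := Subgroup.card_dvd_of_injective f hf
    rwa [Nat.card_eq_fintype_card (α := (ZMod 17)ˣ), ZMod.card_units_eq_totient,
      Nat.totient_prime (by norm_num)] at this

theorem fixed_of_order_three_on_two {y : Equiv.Perm Pt} {p q : Pt} (hy : y ^ 3 = 1)
    (hp : y p = p ∨ y p = q) (hq : y q = p ∨ y q = q) : y p = p := by
  have h3 : y (y (y p)) = p := by
    have := congrArg (fun s : Equiv.Perm Pt => s p) hy
    simpa [pow_succ] using this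
  rcases hp with h | h
  · exact h
  · rcases hq with h' | h'
    · rw [h, h', h] at h3
      rw [h]; exact h3
    · rw [h, h', h'] at h3
      rw [h]; exact h3

theorem Good.order_three_no_fixed (hH : Good H) {y : Equiv.Perm Pt} (hy : y ∈ H) (h3 : y ^ 3 = 1)
    (h1 : y ≠ 1) (p : Pt) : y p ≠ p := by
  intro hp
  obtain ⟨e, -, hs, hs0, -⟩ := hH.exists_conj_none hy hp
  obtain ⟨a, b, -, hab⟩ := hH.affine hs hs0
  have h3' : (e * y * e⁻¹) ^ 3 = 1 := by rw [conj_pow, h3, mul_one, mul_inv_cancel]
  have key : ∀ a : ZMod 17, a ^ 3 = 1 → a = 1 := by decide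
  have hcomp : ∀ x : ZMod 17, a * (a * (a * x + b) + b) + b = x := by
    intro x
    have := congrArg (fun s : Equiv.Perm Pt => s (some x)) h3'
    simp only [pow_succ, pow_zero, one_mul, Equiv.Perm.mul_apply, Equiv.Perm.one_apply] at this
    have h' : (e * y * e⁻¹) ((e * y * e⁻¹) ((e * y * e⁻¹) (some x))) = some x := by
      simpa only [Equiv.Perm.mul_apply] using this
    rw [hab, hab, hab] at h'
    exact Option.some_injective _ h'
  have ha : a = 1 := key a (by linear_combination hcomp 1 - hcomp 0)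
  have hb : b = 0 := by
    have h := hcomp 0
    rw [ha] at h
    have key2 : ∀ b : ZMod 17, b + b + b = 0 → b = 0 := by decide
    exact key2 b (by linear_combination h)
  apply h1
  have : e * y * e⁻¹ = 1 := by
    ext x : 1
    cases x with
    | none => rw [hs0]; rfl
    | some x => rw [hab x, ha, hb, one_mul, add_zero]; rfl
  exact conj_eq_one_iff.mp this

/-- Nothing of order three commutes with a non-trivial element having a fixed point. -/
theorem Good.not_commute (hH : Good H) {y z : Equiv.Perm Pt} (hy : y ∈ H) (hz : z ∈ H) (h3 : y ^ 3 = 1)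
    (hy1 : y ≠ 1) (hz1 : z ≠ 1) {p : Pt} (hp : z p = p) (hc : y * z = z * y) : False := by
  have hfix : ∀ x, z x = x → z (y x) = y x := by
    intro x hx
    have := congrArg (fun s : Equiv.Perm Pt => s x) hc
    simp only [Equiv.Perm.mul_apply, hx] at this
    exact this.symm
  set q := y p with hq
  have hqp : q ≠ p := hH.order_three_no_fixed hy h3 hy1 p
  rcases hH.fixed_le_two hz hz1 hp (hfix p hp) (hfix _ (hfix p hp)) with h | h | h
  · exact hqp h.symm
  · exact hH.order_three_no_fixed hy h3 hy1 p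
      (fixed_of_order_three_on_two h3 (Or.inr hq.symm) (Or.inl h.symm))
  · exact hH.order_three_no_fixed hy h3 hy1 q h.symm

theorem exists_fixed_of_pow_seventeen {z : Equiv.Perm Pt} (h : z ^ 17 = 1) : ∃ p, z p = p :=
  Equiv.Perm.exists_fixed_point_of_prime (p := 17) (n := 1)
    (by simp [Fintype.card_option, ZMod.card]) (by rw [pow_one]; exact h)

theorem exists_fixed_of_even_involution {z : Equiv.Perm Pt} (h : z ^ 2 = 1)
    (he : Equiv.Perm.sign z = 1) : ∃ p, z p = p := by
  by_contra hc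
  push Not at hc
  have hsupp : z.support = Finset.univ := by
    ext x; simp [hc x]
  have hz1 : z ≠ 1 := fun e => hc none (by rw [e]; rfl)
  have hord : orderOf z = 2 := orderOf_eq_prime h hz1
  obtain ⟨n, hn⟩ := Equiv.Perm.cycleType_prime_order (σ := z) (hord ▸ Nat.prime_two)
  rw [hord] at hn
  have hsum := Equiv.Perm.sum_cycleType z
  rw [hn, hsupp, Multiset.sum_replicate, Finset.card_univ, smul_eq_mul] at hsum
  have hc18 : Fintype.card Pt = 18 := by simp [Fintype.card_option, ZMod.card]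
  rw [Equiv.Perm.sign_of_cycleType, hn, Multiset.sum_replicate, Multiset.card_replicate, smul_eq_mul,
    hsum, hc18] at he
  have hn9 : n + 1 = 9 := by omega
  rw [hn9] at he
  exact absurd he (by decide)

theorem Good.eq_tau_pow_of_commute_tau (hH : Good H) {g : Equiv.Perm Pt} (hg : g ∈ H)
    (hc : g * tau = tau * g) : g ^ 17 = 1 := by
  have h0 : g none = none := by
    have h := congrArg (fun s : Equiv.Perm Pt => s none) hc
    simp only [Equiv.Perm.mul_apply, tau_none] at h
    cases hgn : g none with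
    | none => rfl
    | some x =>
      rw [hgn, tau_some] at h
      exact absurd (Option.some_injective _ h) (by simp)
  obtain ⟨a, b, -, hab⟩ := hH.affine hg h0
  have ha : a = 1 := by
    have h := congrArg (fun s : Equiv.Perm Pt => s (some 0)) hc
    simp only [Equiv.Perm.mul_apply, tau_some, hab, zero_add, mul_zero, mul_one] at h
    linear_combination Option.some_injective _ h
  have heq : g = tau ^ b.val := by
    ext x : 1
    cases x with
    | none => rw [h0, tau_pow_none]
    | some x => rw [hab, tau_pow_some, ha, one_mul, ZMod.natCast_zmod_val]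
  rw [heq, ← pow_mul, mul_comm, pow_mul, tau_pow_seventeen, one_pow]

theorem perm_fixed_of_small {G X : Type*} [Group G] [MulAction G X] [Finite X] {g : G} (hg : g ^ 17 = 1)
    (hX : Nat.card X < 17) (x : X) : g • x = x := by
  have hd : (MulAction.toPerm g : Equiv.Perm X) ^ 17 = 1 := by
    show (MulAction.toPermHom G X g) ^ 17 = 1
    rw [← map_pow, hg, map_one]
  have h2 : orderOf (MulAction.toPerm g : Equiv.Perm X) ∣ (Nat.card X).factorial := by
    rw [← Nat.card_perm]; exact orderOf_dvd_natCard _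
  rcases (Nat.dvd_prime (by norm_num : Nat.Prime 17)).mp (orderOf_dvd_of_pow_eq_one hd) with h | h
  · exact congrArg (fun s : Equiv.Perm X => s x) (orderOf_eq_one_iff.mp h)
  · rw [h] at h2
    exact absurd ((Nat.Prime.dvd_factorial (by norm_num)).mp h2) (by omega)

theorem Good.exists_conj_tau (hH : Good H) {z : Equiv.Perm Pt} (hz : z ∈ H) (h17 : z ^ 17 = 1) (hz1 : z ≠ 1) :
    ∃ e ∈ H, ∃ k : ℕ, 0 < k ∧ k < 17 ∧ e * z * e⁻¹ = tau ^ k := by
  obtain ⟨p, hp⟩ := exists_fixed_of_pow_seventeen h17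
  obtain ⟨e, he, hs, hs0, -⟩ := hH.exists_conj_none hz hp
  obtain ⟨a, b, ha, hab⟩ := hH.affine hs hs0
  set s := e * z * e⁻¹ with hs'
  have hpow : ∀ (n : ℕ) (x : ZMod 17), ∃ c, (s ^ n) (some x) = some (a ^ n * x + c) ∧
      (∀ y, (s ^ n) (some y) = some (a ^ n * y + c)) := by
    intro n
    induction n with
    | zero => intro x; exact ⟨0, by simp, fun y => by simp⟩
    | succ n ih =>
      intro x
      obtain ⟨c, -, hc⟩ := ih x
      refine ⟨a * c + b, ?_, fun y => ?_⟩ <;>
        rw [pow_succ' s, Equiv.Perm.mul_apply, hc, hab, pow_succ'] <;> ring_nf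
  obtain ⟨c, -, hc⟩ := hpow 17 0
  have hs17 : s ^ 17 = 1 := by rw [hs', conj_pow, h17, mul_one, mul_inv_cancel]
  have ha1 : a = 1 := by
    have e0 := hc 0
    have e1 := hc 1
    rw [hs17, Equiv.Perm.one_apply, mul_zero, zero_add] at e0
    rw [hs17, Equiv.Perm.one_apply, mul_one, ← Option.some_injective _ e0, add_zero] at e1
    have h := (Option.some_injective _ e1).symm
    rwa [ZMod.pow_card] at h
  refine ⟨e, he, b.val, ?_, ZMod.val_lt b, ?_⟩
  · rw [Nat.pos_iff_ne_zero]
    intro hb
    apply hz1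
    have : s = 1 := by
      ext x : 1
      cases x with
      | none => rw [hs0]; rfl
      | some x => rw [hab, ha1, (ZMod.val_eq_zero b).mp hb, one_mul, add_zero]; rfl
    exact conj_eq_one_iff.mp this
  · ext x : 1
    cases x with
    | none => rw [hs0, tau_pow_none]
    | some x => rw [hab, tau_pow_some, ha1, one_mul, ZMod.natCast_zmod_val]

variable (hH : Good H) (hev : ∀ h ∈ H, Equiv.Perm.sign h = 1)
include hH hev

/-- An element of `H` commuting with an element of order three has order dividing a power of three. -/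
theorem Good.centralizer_three {y g : Equiv.Perm Pt} (hy : y ∈ H) (hg : g ∈ H) (h3 : y ^ 3 = 1) (hy1 : y ≠ 1)
    (hc : y * g = g * y) : ∀ q : ℕ, q.Prime → q ∣ orderOf g → q = 3 := by
  intro q hq hqg
  have hu : orderOf (g ^ (orderOf g / q)) = q := orderOf_pow_orderOf_div (orderOf_pos g).ne' hqg
  have hqH : q ∣ Nat.card ↥H := hqg.trans (Subgroup.orderOf_dvd_natCard H hg)
  rw [hH.card_eq.1] at hqH
  have hcases : q = 2 ∨ q = 3 ∨ q = 17 := by
    have hd : q ∣ 18 * 17 * 16 := hqH.trans (Nat.mul_dvd_mul_left _ hH.card_eq.2)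
    rcases hq.dvd_mul.mp hd with h | h
    · rcases hq.dvd_mul.mp h with h | h
      · have h' : q ∣ 2 * (3 * 3) := h
        rcases hq.dvd_mul.mp h' with h | h
        · exact Or.inl ((Nat.prime_dvd_prime_iff_eq hq Nat.prime_two).mp h)
        · exact Or.inr (Or.inl ((Nat.prime_dvd_prime_iff_eq hq Nat.prime_three).mp
            ((hq.dvd_mul.mp h).elim id id)))
      · exact Or.inr (Or.inr ((Nat.prime_dvd_prime_iff_eq hq (by norm_num)).mp h))
    · exact Or.inl ((Nat.prime_dvd_prime_iff_eq hq Nat.prime_two).mp (hq.dvd_of_dvd_pow (show q ∣ 2 ^ 4 from h)))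
  have hu1 : g ^ (orderOf g / q) ≠ 1 := fun h => by
    rw [h, orderOf_one] at hu; exact hq.one_lt.ne hu
  have huc : y * g ^ (orderOf g / q) = g ^ (orderOf g / q) * y := (Commute.pow_right hc _).eq
  have huq : (g ^ (orderOf g / q)) ^ q = 1 := by
    have h := pow_orderOf_eq_one (g ^ (orderOf g / q)); rwa [hu] at h
  rcases hcases with rfl | rfl | rfl
  · obtain ⟨p, hp⟩ := exists_fixed_of_even_involution huq (hev _ (H.pow_mem hg _))
    exact (hH.not_commute hy (H.pow_mem hg _) h3 hy1 hu1 hp huc).elim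
  · rfl
  · obtain ⟨p, hp⟩ := exists_fixed_of_pow_seventeen huq
    exact (hH.not_commute hy (H.pow_mem hg _) h3 hy1 hu1 hp huc).elim

omit hev in
theorem Good.two_pow_dvd : ∃ j : ℕ, j ≤ 4 ∧ Nat.card ↥(stab₂ H) = 2 ^ j :=
  (Nat.dvd_prime_pow Nat.prime_two).mp (show Nat.card ↥(stab₂ H) ∣ 2 ^ 4 from hH.card_eq.2)

omit hev in
theorem Good.card_sylow_three_group (R : Sylow 3 ↥H) : Nat.card (R : Subgroup ↥H) = 9 := by
  obtain ⟨j, -, hj⟩ := hH.two_pow_dvd
  rw [Sylow.card_eq_multiplicity, hH.card_eq.1, hj]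
  have : (18 * 17 * 2 ^ j).factorization 3 = 2 := by
    apply le_antisymm
    · by_contra h
      have hd : 3 ^ 3 ∣ 18 * 17 * 2 ^ j :=
        (Nat.prime_three.pow_dvd_iff_le_factorization (by positivity)).mpr (by omega)
      have : 3 ^ 3 ∣ 18 * 17 :=
        (Nat.Coprime.dvd_of_dvd_mul_right (((Nat.coprime_primes Nat.prime_three Nat.prime_two).mpr
          (by norm_num)).pow 3 j) hd)
      norm_num at this
    · exact (Nat.prime_three.pow_dvd_iff_le_factorization (by positivity)).mp
        (Dvd.dvd.mul_right (by norm_num) _)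
  rw [this]; norm_num

theorem Good.sylow_three_ti (R R' : Sylow 3 ↥H) (hne : R ≠ R') :
    (R : Subgroup ↥H) ⊓ (R' : Subgroup ↥H) = ⊥ := by
  have : Fact (Nat.Prime 3) := ⟨Nat.prime_three⟩
  by_contra hI
  obtain ⟨m, hm⟩ := IsPGroup.iff_card.mp (R.2.to_le (inf_le_left (b := (R' : Subgroup ↥H))))
  have hm0 : m ≠ 0 := by
    rintro rfl; exact hI (Subgroup.card_eq_one.mp (by rw [hm, pow_zero]))
  obtain ⟨⟨y, hyI⟩, hy⟩ :=
    exists_prime_orderOf_dvd_card' (G := ↥((R : Subgroup ↥H) ⊓ (R' : Subgroup ↥H))) 3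
      (by rw [hm]; exact dvd_pow_self 3 hm0)
  rw [Subgroup.orderOf_mk] at hy
  obtain ⟨hyR, hyR'⟩ := hyI
  set C := Subgroup.centralizer ({y} : Set ↥H) with hC
  have hy3 : (y : Equiv.Perm Pt) ^ 3 = 1 := by
    have := congrArg (Subtype.val : ↥H → _) (hy ▸ pow_orderOf_eq_one y)
    simpa using this
  have hy1 : (y : Equiv.Perm Pt) ≠ 1 := fun h => by
    have : y = 1 := Subtype.ext h
    rw [this, orderOf_one] at hy; norm_num at hy
  have hCp : IsPGroup 3 ↥C := by
    intro g
    have hc : (y : Equiv.Perm Pt) * (g : ↥H) = ((g : ↥H) : Equiv.Perm Pt) * y :=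
      congrArg Subtype.val (Subgroup.mem_centralizer_singleton_iff.mp g.2).symm
    obtain ⟨k, hk⟩ : ∃ k, orderOf ((g : ↥H) : Equiv.Perm Pt) = 3 ^ k := by
      refine ⟨_, Nat.eq_prime_pow_of_unique_prime_dvd (orderOf_pos _).ne' ?_⟩
      intro q hq hd
      exact hH.centralizer_three hev y.2 (g : ↥H).2 hy3 hy1 hc q hq hd
    refine ⟨k, Subtype.ext (Subtype.ext ?_)⟩
    simp only [Subgroup.coe_pow, Subgroup.coe_one]
    rw [← hk]; exact pow_orderOf_eq_one _
  have habel : ∀ S : Sylow 3 ↥H, y ∈ (S : Subgroup ↥H) → (S : Subgroup ↥H) ≤ C := by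
    intro S hyS g hg
    have hcard := hH.card_sylow_three_group S
    have : Fact (Nat.Prime 3) := ⟨Nat.prime_three⟩
    have hcomm := IsPGroup.commutative_of_card_eq_prime_sq (G := ↥(S : Subgroup ↥H))
      (p := 3) (by rw [hcard]; norm_num)
    rw [hC, Subgroup.mem_centralizer_singleton_iff]
    exact congrArg Subtype.val (hcomm ⟨g, hg⟩ ⟨y, hyS⟩)
  obtain ⟨T, hT⟩ := hCp.exists_le_sylow
  exact hne (Sylow.ext (((R.3 T.2 ((habel R hyR).trans hT)).symm).trans (R'.3 T.2 ((habel R' hyR').trans hT))))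

end CfsgLib.OrderDegrees.Degree18
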